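import Cfsg.Agent.H928.Ore.Block
import Cfsg.Agent.H928.Ore.TwS
import Cfsg.Agent.Nodes.ChevChart
import Cfsg.Agent.H70.G2Even
import Cfsg.Agent.S1055

/-!
# `G₂(4)`: every element `≠ 1` is a product of a conjugate of `ω t` and a conjugate of `(ω t)⁻¹` (helper249)

`P = 2^{2+8}:(3 × A₅)`, `ω` the central element of order three of the Levi subgroup, `t` a short root involution of the
Levi subgroup. The lifts of `ω t` in `2.G₂(4)` are conjugate to their products with the central involution (helper509), so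
every element of `2.G₂(4)` is a commutator (S2491, S2492).
-/

set_option autoImplicit false
set_option linter.unusedSectionVars false

namespace Cfsg.Agent.H249.QO.GTwoFour

open CoxeterSystem Cfsg.Agent.ChevalleyStructure.CoxeterGeom Cfsg.Agent.Tits.Roots Cfsg.Agent.Tits.Core
  Cfsg.Agent.Nodes.Reps Cfsg.Agent.Nodes.BNOf Cfsg.Agent.Nodes.RGDLib Cfsg.Agent.Nodes.Bruhat
  Cfsg.Agent.Nodes.OppDec Cfsg.Agent.Nodes.LeviDec Cfsg.Agent.Nodes.KindChev Cfsg.Agent.Nodes.ChevCls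
  Cfsg.Agent.OddHalf.NI.ModelChev Cfsg.Agent.Nodes.StabComb
  Cfsg.Agent.H162.GaussDec Cfsg.Agent.H162.GaussLevi Cfsg.Agent.H162.GaussSL Cfsg.Agent.H162.GaussReg
  Cfsg.Agent.H162.GaussMain Cfsg.Agent.H162.GaussExc Cfsg.Agent.H162.GaussExcMain
  Cfsg.Agent.H928.Ore.Frame Cfsg.Agent.H928.Ore.Fix
open Cfsg.Lie Cfsg.Agent.ChevalleyStructure Cfsg.Agent.ChevalleyStructure.Elts
  Cfsg.Agent.ChevalleyStructure.RootVec Cfsg.Agent.ChevalleyStructure.NPerm
  Cfsg.Agent.ChevalleyStructure.CoxeterGeomTypes Cfsg.Agent.Nodes.RGDChev Cfsg.Agent.KFacts.RgdChevCoord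
open Cfsg.Agent.FixBN.FieldRGD (uu vv dd ww)
open Cfsg.Agent.H70.G2Even (inG2)
open scoped MatrixGroups

universe u

theorem hT : IsType chevG2 2 CoxeterMatrix.G₂ := by simp [IsType, typeList]

/-! ### `SL₂` in characteristic two -/

section

variable {K : Type u} [Field K]

theorem dd_uu {c : K} (hc : c ≠ 0) (a : K) : dd c hc * uu a * (dd c hc)⁻¹ = uu (c * c * a) := by
  rw [mul_inv_eq_iff_eq_mul]
  apply Subtype.ext
  show !![c, 0; 0, c⁻¹] * !![1, a; 0, 1] = !![1, c * c * a; 0, 1] * !![c, 0; 0, c⁻¹]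
  rw [Matrix.mul_fin_two, Matrix.mul_fin_two]
  ext i j
  fin_cases i <;> fin_cases j
  · simp
  · simp
    field_simp
  · simp
  · simp

theorem ww_uu (a : K) : ww 1 one_ne_zero * uu a * (ww 1 one_ne_zero)⁻¹ = vv (-a) := by
  rw [mul_inv_eq_iff_eq_mul]
  apply Subtype.ext
  show !![0, 1; -1⁻¹, 0] * !![1, a; 0, 1] = !![1, 0; -a, 1] * !![0, (1 : K); -1⁻¹, 0]
  rw [Matrix.mul_fin_two, Matrix.mul_fin_two]
  ext i j
  fin_cases i <;> fin_cases j <;> simp

theorem exists_uu [Finite K] [CharP K 2] {a : K} (ha : a ≠ 0) : ∃ P : SL(2, K), uu a = P * uu 1 * P⁻¹ := by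
  have := Fintype.ofFinite K
  obtain ⟨c, hc⟩ := FiniteField.isSquare_of_char_two (ringChar.eq K 2) a
  have hc0 : c ≠ 0 := by
    rintro rfl
    exact ha (by rw [hc, mul_zero])
  exact ⟨dd c hc0, by rw [dd_uu, mul_one, hc]⟩

theorem exists_vv [Finite K] [CharP K 2] {a : K} (ha : a ≠ 0) : ∃ P : SL(2, K), vv a = P * uu 1 * P⁻¹ := by
  obtain ⟨P, hP⟩ := exists_uu (K := K) (a := -a) (neg_ne_zero.2 ha)
  refine ⟨ww 1 one_ne_zero * P, ?_⟩
  have h1 := ww_uu (-a)
  rw [_root_.neg_neg] at h1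
  rw [← h1, hP]
  group

theorem uu_add' (a b : K) : uu (a + b) = uu a * uu b := Cfsg.Agent.FixBN.FieldRGD.uu_add a b

theorem vv_add' (a b : K) : vv (a + b) = vv a * vv b := by
  apply Subtype.ext
  show !![1, 0; a + b, 1] = !![1, 0; a, 1] * !![1, 0; b, 1]
  rw [Matrix.mul_fin_two]
  ext i j
  fin_cases i <;> fin_cases j <;> simp

/-- every `v u` is a product of two involutions -/
theorem exists_two [Finite K] [CharP K 2] (h3 : 3 ≤ Nat.card K) (a b : K) :
    ∃ P Q : SL(2, K), vv a * uu b = (P * uu 1 * P⁻¹) * (Q * uu 1 * Q⁻¹) := by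
  have hne : ∀ c : K, ∃ e : K, e ≠ 0 ∧ e ≠ c := by
    intro c
    by_contra hcon
    push Not at hcon
    have := Fintype.ofFinite K
    classical
    have h1 : (Finset.univ : Finset K) ⊆ {0, c} := by
      intro e _
      by_cases he : e = 0
      · simp [he]
      · simp [hcon e he]
    have h2 := Finset.card_le_card h1
    have h4 : ({0, c} : Finset K).card ≤ 2 := Finset.card_le_two
    rw [Finset.card_univ, ← Nat.card_eq_fintype_card] at h2
    omega
  have key : ∀ X Y : SL(2, K), (∃ P, X = P * uu 1 * P⁻¹) → (∃ Q, Y = Q * uu 1 * Q⁻¹) →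
      ∃ P Q : SL(2, K), X * Y = (P * uu 1 * P⁻¹) * (Q * uu 1 * Q⁻¹) := by
    rintro X Y ⟨P, hP⟩ ⟨Q, hQ⟩
    exact ⟨P, Q, by rw [hP, hQ]⟩
  by_cases ha : a = 0
  · subst ha
    have hv : vv (0 : K) = 1 := by
      apply Subtype.ext
      show !![1, 0; 0, 1] = (1 : Matrix (Fin 2) (Fin 2) K)
      exact Matrix.one_fin_two.symm
    rw [hv, one_mul]
    obtain ⟨e, he, heb⟩ := hne b
    have h1 : uu b = uu e * uu (b - e) := by rw [← uu_add']; congr 1; ring
    rw [h1]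
    exact key _ _ (exists_uu he) (exists_uu (sub_ne_zero.2 (Ne.symm heb)))
  · by_cases hb : b = 0
    · subst hb
      have hv : uu (0 : K) = 1 := by
        apply Subtype.ext
        show !![1, 0; 0, 1] = (1 : Matrix (Fin 2) (Fin 2) K)
        exact Matrix.one_fin_two.symm
      rw [hv, mul_one]
      obtain ⟨e, he, hea⟩ := hne a
      have h1 : vv a = vv e * vv (a - e) := by rw [← vv_add']; congr 1; ring
      rw [h1]
      exact key _ _ (exists_vv he) (exists_vv (sub_ne_zero.2 (Ne.symm hea)))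
    · exact key _ _ (exists_vv ha) (exists_uu hb)

end

/-! ### the element `ω` -/

section

variable {K : Type u} [Field K]

/-- `ω = h_a(λ) h_b(λ²)` -/
def sg (lam : Kˣ) : Fin 2 → Kˣ := ![lam, lam ^ 2]

theorem exp_eq (lam : Kˣ) (r : ℕ) : ∏ k : Fin 2, ((sg lam k : Kˣ) : K) ^ chevG2.cartan k r =
    (lam : K) ^ (chevG2.cartan 0 r + 2 * chevG2.cartan 1 r) := by
  have hl : (lam : K) ≠ 0 := lam.ne_zero
  rw [Fin.prod_univ_two, zpow_add₀ hl, zpow_mul]
  simp [sg]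

theorem exp_ne : ∀ r < chevG2.nroots, (∃ k, k ∉ ({0} : Set (Fin 2)) ∧ vec chevG2 2 r k ≠ 0) →
    ¬ (3 : ℤ) ∣ chevG2.cartan 0 r + 2 * chevG2.cartan 1 r := by
  have h : ∀ r < chevG2.nroots, vec chevG2 2 r 1 ≠ 0 → ¬ (3 : ℤ) ∣ chevG2.cartan 0 r + 2 * chevG2.cartan 1 r := by
    decide +kernel
  intro r hr hk
  refine h r hr ?_
  obtain ⟨k, hk1, hk2⟩ := hk
  have : k = 1 := by
    fin_cases k
    · simp at hk1
    · rfl
  rwa [this] at hk2

theorem pow_ne {lam : Kˣ} (hl : orderOf lam = 3) {e : ℤ} (he : ¬ (3 : ℤ) ∣ e) : (lam : K) ^ e ≠ 1 := by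
  intro h
  apply he
  have h1 : lam ^ e = 1 := by
    apply Units.ext
    rw [Units.val_zpow_eq_zpow_val, h, Units.val_one]
  have h2 := (orderOf_dvd_iff_zpow_eq_one).2 h1
  rwa [hl] at h2

/-- the element -/
noncomputable def om (lam : Kˣ) : ↥(chevG2.group K) := th hT (sg lam)

theorem om_mem (lam : Kˣ) : om lam ∈ TT chevG2 K := (thT hT (sg lam)).2

theorem noFix_om {lam : Kˣ} (hl : orderOf lam = 3) :
    NoFix CoxeterMatrix.G₂.toCoxeterSystem hT.isCartan (XX chevG2 2 K) {0} (om lam) :=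
  noFix_ch hT (om_mem lam) fun r hr hk => by
    rw [om, ch_th hT hr, exp_eq]
    exact pow_ne hl (exp_ne r hr hk)

theorem om_cube {lam : Kˣ} (hl : orderOf lam = 3) : om lam ^ 3 = 1 := by
  unfold om
  rw [← map_pow]
  have h1 : sg lam ^ 3 = 1 := by
    have h2 : lam ^ 3 = 1 := by rw [← hl, pow_orderOf_eq_one]
    funext k
    fin_cases k
    · simp [sg, h2]
    · show (lam ^ 2) ^ 3 = 1
      rw [← pow_mul, mul_comm, pow_mul, h2, one_pow]
  rw [h1, map_one]

/-- `ω` commutes with the Levi factor -/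
theorem om_comm (lam : Kˣ) (A : SL(2, K)) : om lam * sl hT (0 : Fin 2) A = sl hT (0 : Fin 2) A * om lam := by
  have h7 : ∀ r, r = 7 ∨ r = 4 → ∀ a : K, om lam * xc hT (vec chevG2 2 r) a = xc hT (vec chevG2 2 r) a * om lam := by
    intro r hr a
    have hr' : r < chevG2.nroots := by rcases hr with rfl | rfl <;> decide
    have h1 := (act hT hr' (om_mem (K := K) lam)).2 a
    have h2 : ch hT (vec chevG2 2 r) (om lam) = (1 : K) := by
      rw [om, ch_th hT hr', exp_eq]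
      have h3 : chevG2.cartan 0 r + 2 * chevG2.cartan 1 r = 0 := by rcases hr with rfl | rfl <;> decide
      rw [h3, zpow_zero]
    rw [h2, one_mul, mul_inv_eq_iff_eq_mul] at h1
    exact h1
  refine Cfsg.Agent.H928.Ore.TwS.comm_gen2 (fun a => ?_) (fun a => ?_) A
  · rw [sl_uu, ← vec_simple hT]
    exact h7 7 (.inl rfl) a
  · rw [sl_vv, ← vec_simple hT, ← vec_neg hT (by decide)]
    exact h7 4 (.inr rfl) a

/-! ### the unipotent elements of the Levi subgroup -/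

theorem root_pos : ∀ q < chevG2.nroots, vec chevG2 2 q 1 = 0 → 0 ≤ vec chevG2 2 q 0 → q = 7 := by decide +kernel

theorem of_UJ {u : ↥(chevG2.group K)} (hu : u ∈ UJ CoxeterMatrix.G₂.toCoxeterSystem hT.isCartan (XX chevG2 2 K) {0}) :
    ∃ a : K, u = sl hT (0 : Fin 2) (uu a) := by
  let H : Subgroup ↥(chevG2.group K) :=
    { carrier := {u | ∃ a : K, u = sl hT (0 : Fin 2) (uu a)}
      one_mem' := ⟨0, by
        have hv : uu (0 : K) = 1 := by
          apply Subtype.ext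
          show !![1, 0; 0, 1] = (1 : Matrix (Fin 2) (Fin 2) K)
          exact Matrix.one_fin_two.symm
        rw [hv, map_one]⟩
      mul_mem' := by
        rintro _ _ ⟨a, rfl⟩ ⟨b, rfl⟩
        exact ⟨a + b, by rw [uu_add', map_mul]⟩
      inv_mem' := by
        rintro _ ⟨a, rfl⟩
        refine ⟨-a, ?_⟩
        rw [inv_eq_iff_mul_eq_one, ← map_mul, ← uu_add', add_neg_cancel]
        have hv : uu (0 : K) = 1 := by
          apply Subtype.ext
          show !![1, 0; 0, 1] = (1 : Matrix (Fin 2) (Fin 2) K)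
          exact Matrix.one_fin_two.symm
        rw [hv, map_one] }
  have h1 : UJ CoxeterMatrix.G₂.toCoxeterSystem hT.isCartan (XX chevG2 2 K) {0} ≤ H := by
    refine RGD.Sup_le fun x hx => ?_
    obtain ⟨q, hq, rfl⟩ := (isRoot_iff hT _ x).1 hx.1
    have hq7 : q = 7 := root_pos q hq (hx.2.2 1 (by simp)) (hx.2.1 0)
    subst hq7
    intro y hy
    obtain ⟨c, rfl⟩ := (mem_XX hT hq y).1 hy
    refine ⟨c, ?_⟩
    rw [sl_uu, ← vec_simple hT]
    rfl
  exact h1 hu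

theorem of_UNJ {v : ↥(chevG2.group K)}
    (hv : v ∈ UNJ CoxeterMatrix.G₂.toCoxeterSystem hT.isCartan (XX chevG2 2 K) {0}) :
    ∃ a : K, v = sl hT (0 : Fin 2) (vv a) := by
  let H : Subgroup ↥(chevG2.group K) :=
    { carrier := {u | ∃ a : K, u = sl hT (0 : Fin 2) (vv a)}
      one_mem' := ⟨0, by
        have hv : vv (0 : K) = 1 := by
          apply Subtype.ext
          show !![1, 0; 0, 1] = (1 : Matrix (Fin 2) (Fin 2) K)
          exact Matrix.one_fin_two.symm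
        rw [hv, map_one]⟩
      mul_mem' := by
        rintro _ _ ⟨a, rfl⟩ ⟨b, rfl⟩
        exact ⟨a + b, by rw [vv_add', map_mul]⟩
      inv_mem' := by
        rintro _ ⟨a, rfl⟩
        refine ⟨-a, ?_⟩
        rw [inv_eq_iff_mul_eq_one, ← map_mul, ← vv_add', add_neg_cancel]
        have hv : vv (0 : K) = 1 := by
          apply Subtype.ext
          show !![1, 0; 0, 1] = (1 : Matrix (Fin 2) (Fin 2) K)
          exact Matrix.one_fin_two.symm
        rw [hv, map_one] }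
  have h1 : UNJ CoxeterMatrix.G₂.toCoxeterSystem hT.isCartan (XX chevG2 2 K) {0} ≤ H := by
    refine RGD.Sup_le fun x hx => ?_
    have hx1 := hx.1.neg
    rw [_root_.neg_neg] at hx1
    obtain ⟨q, hq, rfl⟩ := (isRoot_iff hT _ x).1 hx1
    have root_neg : ∀ q < chevG2.nroots, vec chevG2 2 q 1 = 0 → vec chevG2 2 q 0 ≤ 0 → q = 4 := by decide +kernel
    have hq4 : q = 4 := root_neg q hq (by
      have := hx.2.2 1 (by simp)
      rwa [Pi.neg_apply, neg_eq_zero] at this) (by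
      have := hx.2.1 0
      rwa [Pi.neg_apply, Pi.zero_apply, Left.nonneg_neg_iff] at this)
    subst hq4
    intro y hy
    obtain ⟨c, rfl⟩ := (mem_XX hT hq y).1 hy
    refine ⟨c, ?_⟩
    rw [sl_vv, ← vec_simple hT, ← vec_neg hT (by decide)]
    rfl
  exact h1 hv

theorem sl_mem (A : SL(2, K)) :
    sl hT (0 : Fin 2) A ∈ LJ CoxeterMatrix.G₂.toCoxeterSystem hT.isCartan (TT chevG2 K) (XX chevG2 2 K) {0} := by
  have h1 : (⊤ : Subgroup SL(2, K)) ≤
      (LJ CoxeterMatrix.G₂.toCoxeterSystem hT.isCartan (TT chevG2 K) (XX chevG2 2 K) {0}).comap (sl hT (0 : Fin 2)) := by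
    rw [← Cfsg.Agent.LieClassical.SLGen.closure_transvections, Subgroup.closure_le]
    rintro _ ⟨i, j, hij, c, rfl⟩
    change sl hT (0 : Fin 2) _ ∈ LJ _ _ _ _ _
    have h7 : ∀ r, r = 7 ∨ r = 4 → ∀ a : K, xc hT (vec chevG2 2 r) a ∈
        LJ CoxeterMatrix.G₂.toCoxeterSystem hT.isCartan (TT chevG2 K) (XX chevG2 2 K) {0} := by
      intro r hr a
      have hr' : r < chevG2.nroots := by rcases hr with rfl | rfl <;> decide
      refine X_le_LJ (J := {0}) (x := vec chevG2 2 r) ⟨isRoot_vec hT _ hr', fun k hk => ?_⟩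
        ((mem_XX hT hr' _).2 ⟨_, rfl⟩)
      have hk1 : k = 1 := by
        fin_cases k
        · simp at hk
        · rfl
      subst hk1
      rcases hr with rfl | rfl <;> decide +kernel
    have hu : ∀ a : K, sl hT (0 : Fin 2) (uu a) ∈
        LJ CoxeterMatrix.G₂.toCoxeterSystem hT.isCartan (TT chevG2 K) (XX chevG2 2 K) {0} := fun a => by
      rw [sl_uu, ← vec_simple hT]
      exact h7 7 (.inl rfl) a
    have hv : ∀ a : K, sl hT (0 : Fin 2) (vv a) ∈
        LJ CoxeterMatrix.G₂.toCoxeterSystem hT.isCartan (TT chevG2 K) (XX chevG2 2 K) {0} := fun a => by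
      rw [sl_vv, ← vec_simple hT, ← vec_neg hT (by decide)]
      exact h7 4 (.inr rfl) a
    fin_cases i <;> fin_cases j
    · exact absurd rfl hij
    · have e := Cfsg.Agent.H928.Ore.TwS.tv01 c
      have h2 := hu c
      rw [← e] at h2
      exact h2
    · have e := Cfsg.Agent.H928.Ore.TwS.tv10 c
      have h2 := hv c
      rw [← e] at h2
      exact h2
    · exact absurd rfl hij
  exact h1 (Subgroup.mem_top A)

/-! ### the pairs -/

theorem uu_one_sq [CharP K 2] : (uu (1 : K)) * uu 1 = 1 := by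
  rw [← uu_add', CharTwo.add_self_eq_zero]
  apply Subtype.ext
  show !![1, 0; 0, 1] = (1 : Matrix (Fin 2) (Fin 2) K)
  exact Matrix.one_fin_two.symm

theorem nf_pow {Y : Type*} [Group Y] {V : Subgroup Y} {c : Y} (h : NF V (c ^ 4)) : NF V c := by
  intro x hx h1
  apply h x hx
  have h2 : c * x = x * c := by rw [mul_inv_eq_iff_eq_mul] at h1; exact h1
  have h3 : c ^ 4 * x = x * c ^ 4 := ((Commute.pow_left (show Commute c x from h2) 4)).eq
  rw [h3, mul_inv_cancel_right]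

/-- the pairs in the Levi subgroup -/
theorem pairs [Finite K] [CharP K 2] (h3 : 3 ≤ Nat.card K) {lam : Kˣ} (hl : orderOf lam = 3)
    {v u : ↥(chevG2.group K)} (hv : v ∈ UNJ CoxeterMatrix.G₂.toCoxeterSystem hT.isCartan (XX chevG2 2 K) {0})
    (hu : u ∈ UJ CoxeterMatrix.G₂.toCoxeterSystem hT.isCartan (XX chevG2 2 K) {0}) :
    ∃ c₁ c₂, v * u = c₁ * c₂ ∧
      LP CoxeterMatrix.G₂.toCoxeterSystem hT.isCartan (TT chevG2 K) (XX chevG2 2 K) {0} c₁ c₂ ∧
      ((∃ a, c₁ = a * (om lam * sl hT (0 : Fin 2) (uu 1)) * a⁻¹) ∧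
        ∃ b, c₂ = b * (om lam * sl hT (0 : Fin 2) (uu 1))⁻¹ * b⁻¹) := by
  have H2 := exists_two h3
  have := finite_W hT CoxeterMatrix.G₂.toCoxeterSystem
  have R := rgd (K := K) hT CoxeterMatrix.G₂.toCoxeterSystem 2
  obtain ⟨a, rfl⟩ := of_UNJ hv
  obtain ⟨b, rfl⟩ := of_UJ hu
  obtain ⟨P, Q, hPQ⟩ := H2 a b
  obtain ⟨w, hw⟩ : ∃ w, w = om lam := ⟨_, rfl⟩
  have hc : ∀ A : SL(2, K), w * sl hT (0 : Fin 2) A = sl hT (0 : Fin 2) A * w := fun A => by rw [hw]; exact om_comm lam A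
  have hwJ : w ∈ LJ CoxeterMatrix.G₂.toCoxeterSystem hT.isCartan (TT chevG2 K) (XX chevG2 2 K) {0} :=
    T_le_LJ (by rw [hw]; exact om_mem lam)
  have hw3 : w ^ 3 = 1 := by rw [hw]; exact om_cube hl
  have hNF := nf_conj R (by rw [hw]; exact om_mem lam) (by rw [hw]; exact noFix_om hl) (one_mem (LJ
    CoxeterMatrix.G₂.toCoxeterSystem hT.isCartan (TT chevG2 K) (XX chevG2 2 K) {0})) (t := w)
  have hNFi := nf_conj R (by rw [hw]; exact inv_mem (om_mem lam)) (by rw [hw]; exact NoFix.inv (noFix_om hl)) (one_mem (LJ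
    CoxeterMatrix.G₂.toCoxeterSystem hT.isCartan (TT chevG2 K) (XX chevG2 2 K) {0})) (t := w⁻¹)
  simp only [one_mul, inv_one, mul_one] at hNF hNFi
  rw [← hw]
  obtain ⟨f, hf⟩ : ∃ f, f = sl hT (K := K) (0 : Fin 2) := ⟨_, rfl⟩
  have hc' : ∀ A : SL(2, K), w * f A = f A * w := fun A => by rw [hf]; exact hc A
  have hfJ : ∀ A : SL(2, K), f A ∈ LJ CoxeterMatrix.G₂.toCoxeterSystem hT.isCartan (TT chevG2 K) (XX chevG2 2 K) {0} :=
    fun A => by rw [hf]; exact sl_mem A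
  rw [← hf, ← map_mul, hPQ]
  have hu2 : f (uu 1) * f (uu 1) = 1 := by rw [← map_mul, uu_one_sq, map_one]
  have hui : (f (uu 1))⁻¹ = f (uu 1) := inv_eq_of_mul_eq_one_left hu2
  have hci : ∀ A : SL(2, K), w⁻¹ * f A = f A * w⁻¹ := fun A => by
    rw [inv_mul_eq_iff_eq_mul, ← mul_assoc, hc' A, mul_inv_cancel_right]
  have hconj : ∀ P : SL(2, K), f (P * uu 1 * P⁻¹) * f (P * uu 1 * P⁻¹) = 1 := fun P => by
    rw [← map_mul]
    have : P * uu 1 * P⁻¹ * (P * uu 1 * P⁻¹) = P * (uu 1 * uu 1) * P⁻¹ := by group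
    rw [this, uu_one_sq, mul_one, mul_inv_cancel, map_one]
  refine ⟨w * f (P * uu 1 * P⁻¹), w⁻¹ * f (Q * uu 1 * Q⁻¹), ?_, ⟨mul_mem hwJ (hfJ _), mul_mem (inv_mem hwJ) (hfJ _), ?_, ?_⟩,
    ⟨f P, ?_⟩, f Q, ?_⟩
  · rw [hc', map_mul]
    group
  · apply nf_pow
    have h4 : (w * f (P * uu 1 * P⁻¹)) ^ 4 = w := by
      have h5 : Commute w (f (P * uu 1 * P⁻¹)) := hc' _
      rw [h5.mul_pow, show (4 : ℕ) = 3 + 1 from rfl, pow_succ w, hw3, one_mul]
      have h6 : f (P * uu 1 * P⁻¹) ^ (3 + 1) = 1 := by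
        rw [show (3 + 1 : ℕ) = 2 * 2 from rfl, pow_mul, pow_two (f _), hconj, one_pow]
      rw [h6, mul_one]
    rw [h4]
    exact hNF.2
  · apply nf_pow
    have h4 : (w⁻¹ * f (Q * uu 1 * Q⁻¹)) ^ 4 = w⁻¹ := by
      have h5 : Commute w⁻¹ (f (Q * uu 1 * Q⁻¹)) := hci _
      rw [h5.mul_pow]
      have h6 : f (Q * uu 1 * Q⁻¹) ^ 4 = 1 := by
        rw [show (4 : ℕ) = 2 * 2 from rfl, pow_mul, pow_two (f _), hconj, one_pow]
      rw [h6, mul_one, inv_pow, show (4 : ℕ) = 3 + 1 from rfl, pow_succ, hw3, one_mul]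
    rw [h4]
    exact hNFi.1
  · rw [map_mul, map_mul, map_inv]
    calc w * (f P * f (uu 1) * (f P)⁻¹) = (w * f P) * f (uu 1) * (f P)⁻¹ := by group
      _ = f P * w * f (uu 1) * (f P)⁻¹ := by rw [hc']
      _ = _ := by group
  · rw [map_mul, map_mul, map_inv, mul_inv_rev, hui]
    calc w⁻¹ * (f Q * f (uu 1) * (f Q)⁻¹) = (w⁻¹ * f Q) * f (uu 1) * (f Q)⁻¹ := by group
      _ = f Q * (w⁻¹ * f (uu 1)) * (f Q)⁻¹ := by rw [hci]; group
      _ = f Q * (f (uu 1) * w⁻¹) * (f Q)⁻¹ := by rw [hci]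
      _ = _ := by group

end

/-- **Every element `≠ 1` of `G₂(4)` is a product of a conjugate of `ω t` and a conjugate of `(ω t)⁻¹`.** -/
theorem exists_pair {F : Type*} [Field F] [Fintype F] [CharP F 2] (h4 : Fintype.card F = 4) :
    ∃ w : ↥(chevG2.group F), w ^ 3 = 1 ∧
      (∀ u : F, w * ⟨xG inG2 7 u, xG_mem_group inG2 7 u⟩ = ⟨xG inG2 7 u, xG_mem_group inG2 7 u⟩ * w) ∧
      ∀ g : ↥(chevG2.group F), g ≠ 1 → ∃ a b : ↥(chevG2.group F),
        g = a * (w * ⟨xG inG2 7 1, xG_mem_group inG2 7 1⟩) * a⁻¹ *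
          (b * (w * ⟨xG inG2 7 1, xG_mem_group inG2 7 1⟩)⁻¹ * b⁻¹) := by
  have hcard : Nat.card F = 4 := by rw [Nat.card_eq_fintype_card, h4]
  have HP := @pairs F _ _ _ (by rw [hcard]; norm_num)
  obtain ⟨lam, hlam⟩ := IsCyclic.exists_ofOrder_eq_natCard (α := Fˣ)
  have hl : orderOf lam = 3 := by
    classical
    rw [hlam, Nat.card_eq_fintype_card, Fintype.card_units, h4]
  have hx : ∀ u : F, (⟨xG inG2 7 u, xG_mem_group inG2 7 u⟩ : ↥(chevG2.group F)) = sl hT (0 : Fin 2) (uu u) := by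
    intro u
    rw [sl_uu, ← vec_simple hT]
    apply Subtype.ext
    have h7 : chevG2.simple ((0 : Fin 2) : ℕ) = 7 := by decide
    rw [h7]
    exact (coe_xc hT (by decide) u).symm
  have R := rgd (K := F) hT CoxeterMatrix.G₂.toCoxeterSystem 2
  have := finite_W hT CoxeterMatrix.G₂.toCoxeterSystem
  have hs : IsSimpleGroup ↥(chevG2.group F) := (Cfsg.Agent.S1055.result ⟨(lam : F), lam.ne_zero, fun h => by
    have h1 : lam = 1 := Units.ext h
    rw [h1, orderOf_one] at hl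
    omega⟩).1
  have hcore : ∀ g : ↥(chevG2.group F), g ≠ 1 → g ∉ (RGD.B CoxeterMatrix.G₂.toCoxeterSystem hT.isCartan (TT chevG2 F)
      (XX chevG2 2 F)).normalCore := by
    intro g hg h
    have h1 := core_le_ker R (MonoidHom.id _) Function.surjective_id (fun x hx => by
      rw [MonoidHom.mem_ker] at hx
      change x = 1 at hx
      rw [hx]
      exact one_mem _) h
    exact hg h1
  have hG := G1_eq_top hT (K := F) CoxeterMatrix.G₂.toCoxeterSystem
  have hconn := Cfsg.Agent.Nodes.ChevChart.irr_of Cfsg.Agent.Nodes.ChevChart.irrG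
  refine ⟨om lam, om_cube hl, fun u => ?_, fun g hg => ?_⟩
  · rw [hx]
    exact om_comm lam _
  · obtain ⟨c₁, c₂, x, y, ⟨⟨a, ha⟩, b, hb⟩, e⟩ := pair R hG (coord hT) hconn (J := {0})
      (Pr := fun c₁ c₂ => (∃ a, c₁ = a * (om lam * sl hT (0 : Fin 2) (uu 1)) * a⁻¹) ∧
        ∃ b, c₂ = b * (om lam * sl hT (0 : Fin 2) (uu 1))⁻¹ * b⁻¹)
      (fun v hv u hu => HP hl hv hu) (hcore g hg)
    refine ⟨x * a, y * b, ?_⟩
    rw [e, ha, hb, hx]
    group

end Cfsg.Agent.H249.QO.GTwoFour
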